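import Mathlib
import Cfsg.Agent.Lib.Helper49.HUP.Defs
import Cfsg.Agent.Lib.Helper83.Idx2

/-!
# HUP (S3361, helper49): package [META2]
-/

set_option autoImplicit false

namespace Cfsg.Agent.Lib.Helper32.HUP

open Cfsg.Agent.Lib.Helper49.HUP

universe v

/-- a subgroup of index two gives a normal subgroup of index two -/
theorem hasIdx2N_of_hasIdx2 {X : Type v} [Group X] (h : Cfsg.Agent.Lib.Helper83.HasIdx2 X) :
    HasIdx2N X := by
  obtain ⟨N, hN⟩ := h
  exact ⟨N, Subgroup.normal_of_index_eq_two hN, hN⟩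

/-- **[META2]** -/
theorem pkgMeta2 : PkgMeta2.{v} := by
  intro G _ _ heven C hCn hCc hcomm
  classical
  apply hasIdx2N_of_hasIdx2
  haveI : Fact (Nat.Prime 2) := ⟨Nat.prime_two⟩
  obtain ⟨P⟩ : Nonempty (Sylow 2 G) := inferInstance
  by_cases hP : (P : Subgroup G) ≤ commutator G
  · have hle : commutator G ≤ C := by
      rw [commutator_def, Subgroup.commutator_le]
      intro x _ y _
      rw [commutatorElement_def]
      exact hcomm x y
    have hPC : (P : Subgroup G) ≤ C := hP.trans hle
    haveI : IsCyclic C := hCc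
    have hcyc : IsCyclic P :=
      isCyclic_of_injective (Subgroup.inclusion hPC) (Subgroup.inclusion_injective hPC)
    exact Cfsg.Agent.Lib.Helper83.hasIdx2_of_hasNormalPComplement
      (Cfsg.Agent.Lib.Helper83.hasNormalPComplement_of_cyclic P hcyc heven) heven
  · exact Cfsg.Agent.Lib.Helper83.hasIdx2_of_not_le_commutator (P : Subgroup G) P.isPGroup' hP
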