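import Mathlib
import Cfsg.Agent.Lib.Helper49.HUP.Defs
import Cfsg.Agent.S0684

/-!
# HUP (S3361, helper49): package [SEMIM]
-/

set_option autoImplicit false

namespace Cfsg.Agent.Lib.Helper32.HUP

open Cfsg.Agent.Lib.Helper49.HUP

universe u v

/-- a finite domain is commutative (little Wedderburn) -/
theorem finite_domain_mul_comm {R : Type*} [Ring R] [IsDomain R] [Finite R] (x y : R) :
    x * y = y * x := by
  classical
  letI := Fintype.ofFinite R
  letI : DivisionRing R := Fintype.divisionRingOfIsDomain R
  have h := Subring.center_eq_top R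
  have hx : x ∈ Subring.center R := by rw [h]; trivial
  exact (Subring.mem_center_iff.1 hx y).symm

/-- a finite group embedded in the multiplicative monoid of a finite domain is cyclic -/
theorem isCyclic_of_hom_finite_domain {R : Type*} [Ring R] [IsDomain R] [Finite R]
    {C : Type*} [Group C] [Finite C] (f : C →* R) (hf : Function.Injective f) : IsCyclic C := by
  classical
  letI : CommRing R := { (inferInstance : Ring R) with mul_comm := finite_domain_mul_comm }
  exact isCyclic_of_subgroup_isDomain f hf

section lin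

variable {q : ℕ} [Fact q.Prime] {V : Type u} [AddCommGroup V] [Module (ZMod q) V]
  {G : Type v} [Group G]

/-- the centralizer ring of `ρ A` in `End V` -/
def cRing (ρ : G →* (V ≃ₗ[ZMod q] V)) (A : Subgroup G) : Subring (Module.End (ZMod q) V) :=
  Subring.centralizer {f : Module.End (ZMod q) V | ∃ a ∈ A, f = (ρ a).toLinearMap}

theorem mem_cRing (ρ : G →* (V ≃ₗ[ZMod q] V)) (A : Subgroup G) (f : Module.End (ZMod q) V) :
    f ∈ cRing ρ A ↔ ∀ a ∈ A, ∀ v : V, ρ a (f v) = f (ρ a v) := by
  unfold cRing
  rw [Subring.mem_centralizer_iff]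
  constructor
  · intro h a ha v
    have h1 := h _ ⟨a, ha, rfl⟩
    have h2 := congrArg (fun g : Module.End (ZMod q) V => g v) h1
    simpa using h2
  · rintro h g ⟨a, ha, rfl⟩
    ext v
    simpa using h a ha v

theorem cRing_injective (ρ : G →* (V ≃ₗ[ZMod q] V)) (A : Subgroup G) (hirr : Irr ρ A)
    (f : Module.End (ZMod q) V) (hf : f ∈ cRing ρ A) (hf0 : f ≠ 0) : Function.Injective f := by
  have hker : LinearMap.ker f = ⊥ ∨ LinearMap.ker f = ⊤ := by
    apply hirr
    intro a ha v hv
    rw [LinearMap.mem_ker] at hv ⊢
    rw [← (mem_cRing ρ A f).1 hf a ha v, hv, map_zero]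
  rcases hker with h | h
  · exact LinearMap.ker_eq_bot.1 h
  · exact absurd (LinearMap.ker_eq_top.1 h) hf0

theorem cRing_isDomain [Nontrivial V] (ρ : G →* (V ≃ₗ[ZMod q] V)) (A : Subgroup G)
    (hirr : Irr ρ A) : IsDomain (cRing ρ A) := by
  haveI : Nontrivial (cRing ρ A) := by
    refine ⟨⟨0, 1, ?_⟩⟩
    intro h
    obtain ⟨v, hv⟩ := exists_ne (0 : V)
    have h2 := congrArg (fun g : cRing ρ A => (g : Module.End (ZMod q) V) v) h
    simp at h2
    exact hv h2.symm
  haveI : NoZeroDivisors (cRing ρ A) := by
    refine ⟨?_⟩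
    intro a b hab
    by_cases ha : a = 0
    · exact Or.inl ha
    · right
      have ha' : (a : Module.End (ZMod q) V) ≠ 0 := fun h => ha (Subtype.ext h)
      have hinj := cRing_injective ρ A hirr a.1 a.2 ha'
      apply Subtype.ext
      ext v
      apply hinj
      have h2 := congrArg (fun g : cRing ρ A => (g : Module.End (ZMod q) V) v) hab
      simpa using h2
  exact NoZeroDivisors.to_isDomain _

end lin

/-- **[SEMIM]** -/
theorem pkgSemiM : PkgSemiM.{u, v} := by
  intro q _ V _ _ _ _ G _ _ ρ hreg A hAn hAc hirr
  classical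
  obtain ⟨hinj, -, -⟩ := hreg
  haveI := hAn
  refine ⟨Subgroup.centralizer (A : Set G), inferInstance, ?_, ?_⟩
  · -- cyclic
    haveI : IsDomain (cRing ρ A) := cRing_isDomain ρ A hirr
    haveI : Finite (Module.End (ZMod q) V) :=
      Finite.of_injective (fun f => (f : V → V)) DFunLike.coe_injective
    haveI : Finite (cRing ρ A) := inferInstance
    have hmem : ∀ c : Subgroup.centralizer (A : Set G),
        ((ρ (c : G)).toLinearMap : Module.End (ZMod q) V) ∈ cRing ρ A := by
      intro c
      rw [mem_cRing]
      intro a ha v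
      have h1 := (Subgroup.mem_centralizer_iff.1 c.2) a ha
      have h2 := congrArg (fun g : G => ρ g v) h1
      simpa using h2
    let f : Subgroup.centralizer (A : Set G) →* cRing ρ A :=
      { toFun := fun c => ⟨_, hmem c⟩
        map_one' := by
          apply Subtype.ext
          ext v
          simp
        map_mul' := by
          intro c c'
          apply Subtype.ext
          ext v
          simp }
    apply isCyclic_of_hom_finite_domain f
    intro c c' hcc
    have h1 : ((ρ (c : G)).toLinearMap : Module.End (ZMod q) V) = (ρ (c' : G)).toLinearMap :=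
      congrArg Subtype.val hcc
    apply Subtype.ext
    apply hinj
    exact LinearEquiv.toLinearMap_injective h1
  · -- commutators
    intro x y
    rw [Subgroup.mem_centralizer_iff]
    intro a ha
    haveI : IsCyclic A := hAc
    have hcomm : ∀ φ ψ : MulAut A, φ * ψ = ψ * φ := by
      intro φ ψ
      apply (IsCyclic.mulAutMulEquiv A).injective
      rw [map_mul, map_mul, mul_comm]
    have h1 : (MulAut.conjNormal (H := A)) (x * y * x⁻¹ * y⁻¹) = 1 := by
      rw [map_mul, map_mul, map_mul, map_inv, map_inv]
      rw [hcomm (MulAut.conjNormal x) (MulAut.conjNormal y), mul_assoc (MulAut.conjNormal y),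
        mul_inv_cancel, mul_one, mul_inv_cancel]
    have h2 := congrArg (fun φ : MulAut A => ((φ ⟨a, ha⟩ : A) : G)) h1
    simp only [MulAut.conjNormal_apply, MulAut.one_apply] at h2
    exact (mul_inv_eq_iff_eq_mul.1 h2).symm
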